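-- JR (S3206) package [EL]: from a normal subgroup `N` with `NLoc N` and `C_E(N) = 1` to `ELoc E`.
-- (helper26)
import Cfsg.Agent.Lib.Helper35.JR.Defs

set_option autoImplicit false

namespace Cfsg.Agent.Lib.Helper26.JR

open Cfsg.Agent.Lib.Helper35.JR

universe u

theorem pkgEL : PkgEL.{u} := by
  intro E _ _ hab N hNn hNL hC
  obtain ⟨hsimple, hsqN, hsylN, hautN⟩ := hNL
  haveI : Fact (Nat.Prime 2) := ⟨Nat.prime_two⟩
  have hcent : ∀ d : E, (∀ n ∈ N, n * d = d * n) → d = 1 := by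
    intro d hd
    have h1 : d ∈ Subgroup.centralizer (N : Set E) := Subgroup.mem_centralizer_iff.mpr hd
    rw [hC] at h1
    exact Subgroup.mem_bot.mp h1
  -- a Sylow 2-subgroup of `E` which is a Sylow 2-subgroup of `N`
  obtain ⟨P₀⟩ := (inferInstance : Nonempty (Sylow 2 N))
  obtain ⟨T₀, hVT⟩ := (P₀.isPGroup'.map N.subtype).exists_le_sylow
  have hT₀V : ∀ x ∈ (T₀ : Subgroup E), ∃ v ∈ (P₀ : Subgroup N), (v : E) = x := by
    intro x hx
    obtain ⟨k, hk⟩ := T₀.isPGroup' ⟨x, hx⟩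
    have hxk : x ^ 2 ^ k = 1 := by
      have h1 := congrArg Subtype.val hk
      simpa using h1
    have hα : (MulAut.conjNormal x : MulAut N) ^ 2 ^ k = 1 := by
      rw [← map_pow, hxk, map_one]
    obtain ⟨v, hv, hvα⟩ := hautN (MulAut.conjNormal x) k hα P₀ (by
      intro y hy
      apply Subtype.ext
      rw [MulAut.conjNormal_apply]
      have hyT : (y : E) ∈ (T₀ : Subgroup E) := hVT (Subgroup.mem_map_of_mem _ hy)
      have h1 := hab T₀ x hx y hyT
      rw [h1, mul_inv_cancel_right])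
    refine ⟨v, hv, ?_⟩
    have h1 : (v : E)⁻¹ * x = 1 := by
      apply hcent
      intro n hn
      have h2 := congrArg Subtype.val (hvα ⟨n, hn⟩)
      rw [MulAut.conjNormal_apply] at h2
      have h3 : x * n * x⁻¹ = (v : E) * n * (v : E)⁻¹ := by simpa using h2
      have h4 : x * n = (v : E) * n * (v : E)⁻¹ * x := by rw [← h3]; group
      calc n * ((v : E)⁻¹ * x) = (v : E)⁻¹ * ((v : E) * n * (v : E)⁻¹ * x) := by group
        _ = (v : E)⁻¹ * (x * n) := by rw [h4]
        _ = (v : E)⁻¹ * x * n := by group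
    exact inv_mul_eq_one.mp h1
  have hT₀N : (T₀ : Subgroup E) ≤ N := by
    intro x hx
    obtain ⟨v, -, rfl⟩ := hT₀V x hx
    exact v.2
  have hT₀exp : ∀ x ∈ (T₀ : Subgroup E), x ^ 2 = 1 := by
    intro x hx
    obtain ⟨v, hv, rfl⟩ := hT₀V x hx
    have h1 := (hsylN P₀).2 v hv
    have h2 := congrArg Subtype.val h1
    simpa using h2
  have hT₀card : Nat.card (T₀ : Subgroup E) = 4 := by
    have hVeq : (T₀ : Subgroup E) = (P₀ : Subgroup N).map N.subtype := by
      apply le_antisymm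
      · intro x hx
        obtain ⟨v, hv, rfl⟩ := hT₀V x hx
        exact Subgroup.mem_map_of_mem _ hv
      · exact hVT
    rw [hVeq, Subgroup.card_map_of_injective N.subtype_injective]
    exact (hsylN P₀).1
  -- all Sylow 2-subgroups
  have hA : ∀ T : Sylow 2 E, (T : Subgroup E) ≤ N ∧ Nat.card (T : Subgroup E) = 4 ∧
      ∀ x ∈ (T : Subgroup E), x ^ 2 = 1 := by
    intro T
    obtain ⟨g, rfl⟩ := MulAction.exists_smul_eq E T₀ T
    have hmem : ∀ x, x ∈ ((g • T₀ : Sylow 2 E) : Subgroup E) →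
        g⁻¹ * x * g ∈ (T₀ : Subgroup E) := by
      intro x hx
      rw [Sylow.coe_subgroup_smul, Subgroup.mem_pointwise_smul_iff_inv_smul_mem] at hx
      simpa [MulAut.smul_def] using hx
    refine ⟨?_, ?_, ?_⟩
    · intro x hx
      have h1 := hT₀N (hmem x hx)
      have h2 := hNn.conj_mem _ h1 g
      have h3 : g * (g⁻¹ * x * g) * g⁻¹ = x := by group
      rwa [h3] at h2
    · rw [Sylow.card_eq_multiplicity, ← hT₀card, Sylow.card_eq_multiplicity]
    · intro x hx
      have h1 := hT₀exp _ (hmem x hx)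
      have h2 : x ^ 2 = g * (g⁻¹ * x * g) ^ 2 * g⁻¹ := by
        rw [pow_two, pow_two]; group
      rw [h2, h1]; group
  -- squares
  have hNsq : N ≤ Subgroup.closure {y : E | ∃ x : E, x ^ 2 = y} := by
    intro n hn
    have h1 : (⟨n, hn⟩ : N) ∈ Subgroup.closure {y : N | ∃ x : N, x ^ 2 = y} := by
      rw [hsqN]; trivial
    have h2 : N.subtype ⟨n, hn⟩ ∈
        (Subgroup.closure {y : N | ∃ x : N, x ^ 2 = y}).map N.subtype :=
      Subgroup.mem_map_of_mem _ h1
    rw [MonoidHom.map_closure] at h2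
    refine Subgroup.closure_mono ?_ h2
    rintro _ ⟨y, ⟨x, rfl⟩, rfl⟩
    exact ⟨(x : E), by simp⟩
  have hodd : ¬ 2 ∣ N.index := by
    intro h
    exact T₀.not_dvd_index (h.trans (Subgroup.index_dvd_of_le hT₀N))
  have hB : Subgroup.closure {y : E | ∃ x : E, x ^ 2 = y} = ⊤ := by
    rw [eq_top_iff]
    intro e _
    obtain ⟨j, hj⟩ : ∃ j, N.index = 2 * j + 1 := ⟨N.index / 2, by omega⟩
    have h1 : e ^ N.index ∈ N := N.pow_index_mem e
    have h2 : e = (e ^ N.index)⁻¹ * (e ^ (j + 1)) ^ 2 := by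
      rw [← pow_mul, show (j + 1) * 2 = N.index + 1 by omega, pow_succ, inv_mul_cancel_left]
    rw [h2]
    exact Subgroup.mul_mem _ (Subgroup.inv_mem _ (hNsq h1)) (Subgroup.subset_closure ⟨_, rfl⟩)
  -- automorphisms fixing a Sylow 2-subgroup pointwise preserve `N`
  have hC1 : ∀ (γ : E ≃* E) (T : Sylow 2 E), (∀ x ∈ (T : Subgroup E), γ x = x) →
      ∀ n ∈ N, ∃ n' ∈ N, γ n' = n := by
    intro γ T hfix n hn
    obtain ⟨hTN, hTcard, -⟩ := hA T
    have hne : ∃ x ∈ (T : Subgroup E), x ≠ 1 := by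
      by_contra hcon
      push_neg at hcon
      have h1 : (T : Subgroup E) = ⊥ := by
        rw [eq_bot_iff]; intro x hx; exact Subgroup.mem_bot.mpr (hcon x hx)
      rw [h1] at hTcard
      simp at hTcard
    obtain ⟨x, hxT, hx1⟩ := hne
    have hmapn : (N.map γ.toMonoidHom).Normal := Subgroup.Normal.map hNn _ γ.surjective
    have hMn : (N ⊓ N.map γ.toMonoidHom).Normal := inferInstance
    have hxM : x ∈ N ⊓ N.map γ.toMonoidHom := ⟨hTN hxT, ⟨x, hTN hxT, hfix x hxT⟩⟩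
    have hsub : ((N ⊓ N.map γ.toMonoidHom).subgroupOf N).Normal := inferInstance
    haveI := hsimple
    rcases hsub.eq_bot_or_eq_top with h | h
    · exfalso
      have h1 : (⟨x, hTN hxT⟩ : N) ∈ (N ⊓ N.map γ.toMonoidHom).subgroupOf N :=
        Subgroup.mem_subgroupOf.mpr hxM
      rw [h] at h1
      exact hx1 (congrArg Subtype.val (Subgroup.mem_bot.mp h1))
    · have h2 : N ≤ N ⊓ N.map γ.toMonoidHom := Subgroup.subgroupOf_eq_top.mp h
      obtain ⟨n', hn', hn'eq⟩ := (h2 hn).2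
      exact ⟨n', hn', hn'eq⟩
  refine ⟨hB, fun T => ⟨(hA T).2.1, (hA T).2.2⟩, ?_⟩
  intro β k hβ T hfix
  obtain ⟨hTN, -, -⟩ := hA T
  have hβN : ∀ n ∈ N, β n ∈ N := by
    intro n hn
    obtain ⟨n', hn', h⟩ := hC1 β.symm T (fun x hx => by
      rw [MulEquiv.symm_apply_eq]; exact (hfix x hx).symm) n hn
    rw [← h, MulEquiv.apply_symm_apply]; exact hn'
  have hβN' : ∀ n ∈ N, β.symm n ∈ N := by
    intro n hn
    obtain ⟨n', hn', h⟩ := hC1 β T hfix n hn
    rw [← h, MulEquiv.symm_apply_apply]; exact hn'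
  let α : N ≃* N :=
    { toFun := fun n => ⟨β n, hβN n n.2⟩
      invFun := fun n => ⟨β.symm n, hβN' n n.2⟩
      left_inv := fun n => Subtype.ext (β.symm_apply_apply n)
      right_inv := fun n => Subtype.ext (β.apply_symm_apply n)
      map_mul' := fun a b => Subtype.ext (map_mul β (a : E) (b : E)) }
  have hαpow : ∀ (j : ℕ) (n : N), ((α ^ j) n : E) = (β ^ j) (n : E) := by
    intro j
    induction j with
    | zero => intro n; simp
    | succ j ih =>
      intro n
      rw [pow_succ, pow_succ, MulAut.mul_apply, MulAut.mul_apply, ih]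
      rfl
  have hα : α ^ 2 ^ k = 1 := by
    ext n
    rw [hαpow, hβ]; rfl
  obtain ⟨v, hv, hvα⟩ := hautN α k hα (T.subtype hTN) (by
    intro x hx
    have hx' : (x : E) ∈ (T : Subgroup E) := by
      rw [Sylow.coe_subtype] at hx
      exact Subgroup.mem_subgroupOf.mp hx
    exact Subtype.ext (hfix _ hx'))
  have hvT : (v : E) ∈ (T : Subgroup E) := by
    rw [Sylow.coe_subtype] at hv
    exact Subgroup.mem_subgroupOf.mp hv
  refine ⟨(v : E), hvT, ?_⟩
  have hβn : ∀ n ∈ N, β n = (v : E) * n * (v : E)⁻¹ := by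
    intro n hn
    have h1 : β n = ((v * ⟨n, hn⟩ * v⁻¹ : N) : E) := congrArg Subtype.val (hvα ⟨n, hn⟩)
    simpa using h1
  intro e
  have hd : e⁻¹ * (v : E)⁻¹ * β e * (v : E) = 1 := by
    apply hcent
    intro n hn
    have h1 := hβn (e * n * e⁻¹) (hNn.conj_mem n hn e)
    rw [map_mul, map_mul, map_inv, hβn n hn] at h1
    have h2 : β e * ((v : E) * n * (v : E)⁻¹) =
        (v : E) * (e * n * e⁻¹) * (v : E)⁻¹ * β e := by
      rw [← h1]; group
    calc n * (e⁻¹ * (v : E)⁻¹ * β e * (v : E))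
        = e⁻¹ * (v : E)⁻¹ * ((v : E) * (e * n * e⁻¹) * (v : E)⁻¹ * β e) * (v : E) := by group
      _ = e⁻¹ * (v : E)⁻¹ * (β e * ((v : E) * n * (v : E)⁻¹)) * (v : E) := by rw [h2]
      _ = e⁻¹ * (v : E)⁻¹ * β e * (v : E) * n := by group
  have h3 : β e = (v : E) * e * (e⁻¹ * (v : E)⁻¹ * β e * (v : E)) * (v : E)⁻¹ := by group
  rw [h3, hd]; group

end Cfsg.Agent.Lib.Helper26.JR
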